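import Mathlib

/-!
# Elements of symmetric groups have order at most `3 ^ (m / 3)` (helper994, S3507; proof copied from helper341's
`H341.AbCo.card_cube_le`)
-/

set_option autoImplicit false

namespace Cfsg.Agent.H994.Cyc

theorem cube_le_pow (n : ℕ) : n ^ 3 ≤ 3 ^ n := by
  rcases Nat.lt_or_ge n 3 with h | h
  · interval_cases n <;> norm_num
  · induction n, h using Nat.le_induction with
    | base => norm_num
    | succ n hn ih =>
      have h1 : (n + 1) ^ 3 ≤ 3 * n ^ 3 := by
        nlinarith [mul_self_nonneg n, Nat.mul_le_mul hn hn, Nat.mul_le_mul (Nat.mul_le_mul hn hn) hn]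
      calc (n + 1) ^ 3 ≤ 3 * n ^ 3 := h1
        _ ≤ 3 * 3 ^ n := Nat.mul_le_mul_left _ ih
        _ = 3 ^ (n + 1) := by rw [pow_succ, mul_comm]

theorem card_cube_le {A Ω : Type*} [Group A] [Finite Ω] [MulAction A Ω] [FaithfulSMul A Ω]
    (hc : ∀ a b : A, a * b = b * a) : Nat.card A ^ 3 ≤ 3 ^ Nat.card Ω := by
  classical
  obtain ⟨Q, hQ⟩ : ∃ Q, Q = MulAction.orbitRel.Quotient A Ω := ⟨_, rfl⟩
  have hfin : Finite (MulAction.orbitRel.Quotient A Ω) := inferInstance
  let _ : Fintype (MulAction.orbitRel.Quotient A Ω) := Fintype.ofFinite _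
  let f : A → ∀ q : MulAction.orbitRel.Quotient A Ω, q.orbit := fun a q =>
    ⟨a • Quotient.out q, by
      rw [MulAction.orbitRel.Quotient.mem_orbit]
      have h1 : (Quotient.mk'' (a • Quotient.out q) : MulAction.orbitRel.Quotient A Ω) =
          Quotient.mk'' (Quotient.out q) := Quotient.sound (by
        exact ⟨a, rfl⟩)
      rw [h1]
      exact Quotient.out_eq' q⟩
  have hf : Function.Injective f := by
    intro a b hab
    apply FaithfulSMul.eq_of_smul_eq_smul (α := Ω)
    intro x
    obtain ⟨c, hcx⟩ : ∃ c : A, c • Quotient.out (Quotient.mk'' x : MulAction.orbitRel.Quotient A Ω) = x := by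
      have h1 : (MulAction.orbitRel A Ω) x (Quotient.out (Quotient.mk'' x : MulAction.orbitRel.Quotient A Ω)) :=
        Quotient.exact (Quotient.out_eq' _).symm
      exact h1
    have h2 : a • Quotient.out (Quotient.mk'' x : MulAction.orbitRel.Quotient A Ω) =
        b • Quotient.out (Quotient.mk'' x : MulAction.orbitRel.Quotient A Ω) :=
      congrArg Subtype.val (congrFun hab (Quotient.mk'' x))
    rw [← hcx, smul_smul, smul_smul, hc a c, hc b c, mul_smul, mul_smul, h2]
  have h1 : Nat.card A ≤ Nat.card (∀ q : MulAction.orbitRel.Quotient A Ω, q.orbit) :=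
    Nat.card_le_card_of_injective f hf
  rw [Nat.card_pi] at h1
  have h2 : Nat.card Ω = ∑ q : MulAction.orbitRel.Quotient A Ω, Nat.card q.orbit := by
    rw [Nat.card_congr (MulAction.selfEquivSigmaOrbits' A Ω), Nat.card_sigma]
  calc Nat.card A ^ 3 ≤ (∏ q : MulAction.orbitRel.Quotient A Ω, Nat.card q.orbit) ^ 3 := Nat.pow_le_pow_left h1 3
    _ = ∏ q : MulAction.orbitRel.Quotient A Ω, Nat.card q.orbit ^ 3 := (Finset.prod_pow _ _ _).symm
    _ ≤ ∏ q : MulAction.orbitRel.Quotient A Ω, 3 ^ Nat.card q.orbit :=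
        Finset.prod_le_prod' fun q _ => cube_le_pow _
    _ = 3 ^ Nat.card Ω := by rw [Finset.prod_pow_eq_pow_sum, h2]

/-- a permutation of `m` points has order at most `3 ^ (m / 3)` -/
theorem orderOf_perm {m : ℕ} (σ : Equiv.Perm (Fin m)) : orderOf σ ^ 3 ≤ 3 ^ m := by
  have h1 := card_cube_le (A := Subgroup.zpowers σ) (Ω := Fin m) (fun a b => by
    have := (inferInstance : IsMulCommutative (Subgroup.zpowers σ))
    exact this.is_comm.comm a b)
  rwa [Nat.card_zpowers, Nat.card_fin] at h1

/-- in a faithful action with two cycles the degree is at most twice the order of the element -/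
theorem card_le_two_mul {G Ω : Type*} [Group G] [Finite G] [Finite Ω] [MulAction G Ω] (g : G)
    (h : Nat.card (MulAction.orbitRel.Quotient (Subgroup.zpowers g) Ω) = 2) :
    Nat.card Ω ≤ 2 * orderOf g := by
  classical
  let _ : Fintype (MulAction.orbitRel.Quotient (Subgroup.zpowers g) Ω) := Fintype.ofFinite _
  have h2 : Nat.card Ω = ∑ q : MulAction.orbitRel.Quotient (Subgroup.zpowers g) Ω, Nat.card q.orbit := by
    rw [Nat.card_congr (MulAction.selfEquivSigmaOrbits' (Subgroup.zpowers g) Ω), Nat.card_sigma]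
  rw [h2]
  calc ∑ q : MulAction.orbitRel.Quotient (Subgroup.zpowers g) Ω, Nat.card q.orbit
      ≤ ∑ q : MulAction.orbitRel.Quotient (Subgroup.zpowers g) Ω, orderOf g := by
        apply Finset.sum_le_sum
        intro q _
        rw [← Nat.card_zpowers]
        induction q using Quotient.inductionOn' with
        | h x =>
          have h3 : MulAction.orbitRel.Quotient.orbit
              (Quotient.mk'' x : MulAction.orbitRel.Quotient (Subgroup.zpowers g) Ω) =
              MulAction.orbit (Subgroup.zpowers g) x := MulAction.orbitRel.Quotient.orbit_mk x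
          rw [h3]
          exact Nat.card_le_card_of_surjective (fun c : Subgroup.zpowers g =>
            (⟨c • x, MulAction.mem_orbit _ _⟩ : MulAction.orbit (Subgroup.zpowers g) x)) (by
              rintro ⟨_, c, rfl⟩
              exact ⟨c, rfl⟩)
    _ = 2 * orderOf g := by
        rw [Finset.sum_const, smul_eq_mul, Finset.card_univ, ← Nat.card_eq_fintype_card, h]

end Cfsg.Agent.H994.Cyc
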